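import Mathlib
import Cfsg.Agent.H33.Kernel
import Cfsg.Agent.H81.TwoPrimes

/-! Groups with the order and the element orders of an alternating group. -/

set_option autoImplicit false

namespace Cfsg.Agent.H46

open Subgroup

theorem perm_add_le_of_dvd_orderOf {α : Type*} [Fintype α] [DecidableEq α] (σ : Equiv.Perm α)
    {p r : ℕ} (hp : p.Prime) (hr : r.Prime) (hne : p ≠ r) (h1 : p ∣ orderOf σ) (h2 : r ∣ orderOf σ) :
    p + r ≤ Fintype.card α := by
  rw [← Equiv.Perm.lcm_cycleType] at h1 h2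
  have key : ∀ (q : ℕ), q.Prime → ∀ s : Multiset ℕ, q ∣ s.lcm → ∃ c ∈ s, q ∣ c := by
    intro q hq s
    induction s using Multiset.induction_on with
    | empty => intro h; simp at h; exact absurd h hq.one_lt.ne'
    | cons a s ih =>
      intro h
      rw [Multiset.lcm_cons] at h
      have h' : q ∣ a * s.lcm := h.trans (lcm_dvd_mul a s.lcm)
      rcases (Nat.Prime.dvd_mul hq).1 h' with h3 | h3
      · exact ⟨a, Multiset.mem_cons_self _ _, h3⟩
      · obtain ⟨c, hc, hc'⟩ := ih h3
        exact ⟨c, Multiset.mem_cons_of_mem hc, hc'⟩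
  obtain ⟨c, hc, hpc⟩ := key p hp _ h1
  obtain ⟨d, hd, hrd⟩ := key r hr _ h2
  have hsum : σ.cycleType.sum ≤ Fintype.card α := by
    rw [Equiv.Perm.sum_cycleType]; exact Finset.card_le_univ _
  have hc2 := Equiv.Perm.two_le_of_mem_cycleType hc
  have hd2 := Equiv.Perm.two_le_of_mem_cycleType hd
  by_cases hcd : c = d
  · subst hcd
    have hpr : p * r ∣ c := Nat.Coprime.mul_dvd_of_dvd_of_dvd ((Nat.coprime_primes hp hr).2 hne) hpc hrd
    have h3 : p * r ≤ c := Nat.le_of_dvd (by omega) hpr
    have h4 : c ≤ σ.cycleType.sum := Multiset.single_le_sum (fun _ _ => Nat.zero_le _) c hc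
    have h5 : p + r ≤ p * r := by nlinarith [hp.two_le, hr.two_le]
    omega
  · obtain ⟨s, hs⟩ := Multiset.exists_cons_of_mem hc
    have hd' : d ∈ s := by
      rw [hs] at hd
      rcases Multiset.mem_cons.1 hd with h | h
      · exact absurd h.symm hcd
      · exact h
    have h4 : d ≤ s.sum := Multiset.single_le_sum (fun _ _ => Nat.zero_le _) d hd'
    rw [hs, Multiset.sum_cons] at hsum
    have := Nat.le_of_dvd (by omega) hpc
    have := Nat.le_of_dvd (by omega) hrd
    omega

variable {G : Type*} [Group G] [Finite G]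

/-- Frattini plus a fixed point count. -/
theorem exists_order_of_frattini (N : Subgroup G) [N.Normal] {p r : ℕ} (hp : p.Prime) (hr : r.Prime)
    (hne : p ≠ r) (hpG : p ∣ Nat.card G) (hpN : ¬ p ∣ Nat.card N)
    (hmod : ∀ k, 1 ≤ k → r ^ k ∣ Nat.card G → r ^ k % p ≠ 1) (hrN : r ∣ Nat.card N) :
    ∃ g : G, p ∣ orderOf g ∧ r ∣ orderOf g := by
  haveI := Fact.mk hp
  haveI := Fact.mk hr
  obtain ⟨R⟩ : Nonempty (Sylow r N) := inferInstance
  set R' : Subgroup G := (R : Subgroup N).map N.subtype with hR'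
  have hF : normalizer (R' : Set G) ⊔ N = ⊤ := Sylow.normalizer_sup_eq_top R
  have hpn : p ∣ Nat.card (normalizer (R' : Set G)) := by
    by_contra hcon
    have h1 : Nat.card G ∣ Nat.card (normalizer (R' : Set G)) * Nat.card N := by
      have h2 : N.relIndex (normalizer (R' : Set G)) = N.index := by
        rw [← relIndex_sup_right, hF, relIndex_top_right]
      have h3 := N.card_mul_index
      rw [← h3, ← h2, mul_comm]
      exact Nat.mul_dvd_mul_right (relIndex_dvd_card _ _) _
    rcases (Nat.Prime.dvd_mul hp).1 (hpG.trans h1) with h | h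
    · exact hcon h
    · exact hpN h
  obtain ⟨y, hy⟩ := exists_prime_orderOf_dvd_card' p hpn
  have hyo : orderOf (y : G) = p := by rw [Subgroup.orderOf_coe]; exact hy
  have hRp : IsPGroup r R' := R.2.map _
  obtain ⟨k, hk⟩ := IsPGroup.iff_card.1 hRp
  have hcR : Nat.card R' = Nat.card R := card_map_of_injective N.subtype_injective
  have hk1 : 1 ≤ k := by
    by_contra h0
    have : k = 0 := by omega
    subst this
    have h2 := R.card_eq_multiplicity
    rw [← hcR, hk] at h2
    have h3 : 1 ≤ (Nat.card N).factorization r := (hr.dvd_iff_one_le_factorization Nat.card_pos.ne').1 hrN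
    have h4 := Nat.pow_right_injective hr.two_le h2
    omega
  have hmod' : Nat.card R' % p ≠ 1 := by
    rw [hk]; exact hmod k hk1 (hk ▸ card_subgroup_dvd_card R')
  -- the action of `⟨y⟩` on `R'`
  let φ : zpowers y →* MulAut R' := (normalizerMonoidHom R').comp (zpowers y).subtype
  letI : MulAction (zpowers y) R' := MulAction.compHom R' φ
  have hyp : IsPGroup p (zpowers y) := IsPGroup.of_card (n := 1) (by rw [Nat.card_zpowers, hy, pow_one])
  have hfix := hyp.card_modEq_card_fixedPoints R'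
  have hnt : ∃ x : R', x ∈ MulAction.fixedPoints (zpowers y) R' ∧ x ≠ 1 := by
    by_contra hcon
    push Not at hcon
    have h1 : MulAction.fixedPoints (zpowers y) R' = {1} := by
      ext x
      constructor
      · intro hx; exact hcon x hx
      · rintro rfl
        intro g
        exact map_one (φ g)
    rw [h1] at hfix
    apply hmod'
    have h2 : Nat.card R' ≡ 1 [MOD p] := by simpa using hfix
    rw [h2, Nat.mod_eq_of_lt hp.one_lt]
  obtain ⟨x, hx, hx1⟩ := hnt
  have hc : Commute (y : G) (x : G) := by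
    have h1 := hx ⟨y, mem_zpowers y⟩
    have h2 : ((φ ⟨y, mem_zpowers y⟩ x : R') : G) = x := congrArg Subtype.val h1
    have h3 : (y : G) * x * (y : G)⁻¹ = x := h2
    exact mul_inv_eq_iff_eq_mul.1 h3
  obtain ⟨j, hj⟩ := hRp.exists_orderOf_eq_pow x
  have hxo : orderOf (x : G) = r ^ j := by rw [Subgroup.orderOf_coe]; exact hj
  have hj1 : j ≠ 0 := by
    rintro rfl
    exact hx1 (orderOf_eq_one_iff.1 (by simpa using hj))
  have hcop : (orderOf (y : G)).Coprime (orderOf (x : G)) := by
    rw [hyo, hxo]; exact Nat.Coprime.pow_right _ ((Nat.coprime_primes hp hr).2 hne)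
  refine ⟨y * x, ?_, ?_⟩
  · rw [hc.orderOf_mul_eq_mul_orderOf_of_coprime hcop, hyo]; exact Dvd.intro _ rfl
  · rw [hc.orderOf_mul_eq_mul_orderOf_of_coprime hcop, hxo]
    exact Dvd.dvd.mul_left (dvd_pow_self r hj1) _

theorem exists_order_of_comm {M : Type*} [Group M] [Finite M] (hM : ∀ a b : M, Commute a b)
    {p r : ℕ} (hp : p.Prime) (hr : r.Prime) (hne : p ≠ r) (h1 : p ∣ Nat.card M) (h2 : r ∣ Nat.card M) :
    ∃ g : M, p ∣ orderOf g ∧ r ∣ orderOf g := by
  haveI := Fact.mk hp
  haveI := Fact.mk hr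
  obtain ⟨x, hx⟩ := exists_prime_orderOf_dvd_card' p h1
  obtain ⟨y, hy⟩ := exists_prime_orderOf_dvd_card' r h2
  have hcop : (orderOf x).Coprime (orderOf y) := by
    rw [hx, hy]; exact (Nat.coprime_primes hp hr).2 hne
  refine ⟨x * y, ?_, ?_⟩
  · rw [(hM x y).orderOf_mul_eq_mul_orderOf_of_coprime hcop, hx]; exact Dvd.intro _ rfl
  · rw [(hM x y).orderOf_mul_eq_mul_orderOf_of_coprime hcop, hy]; exact Dvd.intro_left _ rfl

/-- In a solvable group two primes satisfying the congruence conditions are adjacent. -/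
theorem exists_order_of_solvable [Group.IsSolvable G] {p r : ℕ} (hp : p.Prime) (hr : r.Prime)
    (hne : p ≠ r) (hpG : p ∣ Nat.card G) (hrG : r ∣ Nat.card G)
    (hmod : ∀ k, 1 ≤ k → r ^ k ∣ Nat.card G → r ^ k % p ≠ 1)
    (hmod' : ∀ k, 1 ≤ k → p ^ k ∣ Nat.card G → p ^ k % r ≠ 1) :
    ∃ g : G, p ∣ orderOf g ∧ r ∣ orderOf g := by
  classical
  obtain ⟨N, ⟨hNn, hN⟩, hmin⟩ := exists_minimal_of_wellFoundedLT
    (fun N : Subgroup G => N.Normal ∧ (p ∣ Nat.card N ∨ r ∣ Nat.card N))
    ⟨⊤, inferInstance, Or.inl (by simpa using hpG)⟩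
  by_cases h1 : p ∣ Nat.card N
  · by_cases h2 : r ∣ Nat.card N
    · have hN1 : N ≠ ⊥ := by
        rintro rfl
        simp at h1
        exact hp.one_lt.ne' h1
      have hlt : ⁅N, N⁆ < N := Group.IsSolvable.commutator_lt_of_ne_bot hN1
      have hnot : ¬ (p ∣ Nat.card (⁅N, N⁆ : Subgroup G) ∨ r ∣ Nat.card (⁅N, N⁆ : Subgroup G)) := by
        intro h
        exact hlt.not_ge (hmin ⟨inferInstance, h⟩ hlt.le)
      have hcm : Nat.card (_root_.commutator N) = Nat.card (⁅N, N⁆ : Subgroup G) := by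
        rw [← map_subtype_commutator]
        exact (card_map_of_injective N.subtype_injective).symm
      have hcard : Nat.card N = Nat.card (Abelianization N) * Nat.card (_root_.commutator N) :=
        card_eq_card_quotient_mul_card_subgroup _
      rw [hcm] at hcard
      have hp' : p ∣ Nat.card (Abelianization N) := by
        rw [hcard] at h1
        exact ((Nat.Prime.dvd_mul hp).1 h1).resolve_right (fun h => hnot (Or.inl h))
      have hr' : r ∣ Nat.card (Abelianization N) := by
        rw [hcard] at h2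
        exact ((Nat.Prime.dvd_mul hr).1 h2).resolve_right (fun h => hnot (Or.inr h))
      haveI : Finite (Abelianization N) := inferInstanceAs (Finite (N ⧸ _root_.commutator N))
      obtain ⟨g, hg1, hg2⟩ := exists_order_of_comm (M := Abelianization N) (fun a b => Commute.all a b)
        hp hr hne hp' hr'
      obtain ⟨g, rfl⟩ := QuotientGroup.mk_surjective (s := _root_.commutator N) g
      have h3 : orderOf (Abelianization.of g) ∣ orderOf g := orderOf_map_dvd _ _
      exact ⟨g, by rw [Subgroup.orderOf_coe]; exact hg1.trans h3,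
        by rw [Subgroup.orderOf_coe]; exact hg2.trans h3⟩
    · obtain ⟨g, h3, h4⟩ := exists_order_of_frattini N hr hp hne.symm hrG h2 hmod' h1
      exact ⟨g, h4, h3⟩
  · exact exists_order_of_frattini N hp hr hne hpG h1 hmod (hN.resolve_left h1)

/-- A characteristically simple group with a prime dividing its order exactly once is simple. -/
theorem simple_of_charSimple {M : Type*} [Group M] [Finite M]
    (h : ∀ K : Subgroup M, K.Characteristic → K = ⊥ ∨ K = ⊤) {p : ℕ} (hp : p.Prime)
    (h1 : p ∣ Nat.card M) (h2 : ¬ p ^ 2 ∣ Nat.card M) : IsSimpleGroup M := by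
  haveI := Fact.mk hp
  obtain ⟨x, hx⟩ := exists_prime_orderOf_dvd_card' p h1
  have hx1 : x ≠ 1 := by
    rintro rfl
    rw [orderOf_one] at hx
    exact hp.one_lt.ne hx
  haveI : Nontrivial M := ⟨⟨x, 1, hx1⟩⟩
  refine ⟨fun K hK => ?_⟩
  by_cases hK' : p ∣ Nat.card K
  · right
    have hch : (closure {y : M | orderOf y = p}).Characteristic := by
      rw [characteristic_iff_map_le]
      intro φ
      rw [MonoidHom.map_closure, closure_le]
      rintro _ ⟨y, hy, rfl⟩
      apply Subgroup.subset_closure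
      show orderOf (φ y) = p
      rw [MulEquiv.orderOf_eq]; exact hy
    have hle : closure {y : M | orderOf y = p} ≤ K := by
      rw [closure_le]
      intro y hy
      have hy' : orderOf y = p := hy
      have hi : ¬ p ∣ K.index := by
        intro hi
        apply h2
        rw [← K.card_mul_index, pow_two]
        exact Nat.mul_dvd_mul hK' hi
      have h3 : orderOf (y : M ⧸ K) ∣ p := hy' ▸ orderOf_map_dvd (QuotientGroup.mk' K) y
      rcases (Nat.dvd_prime hp).1 h3 with h4 | h4
      · exact (QuotientGroup.eq_one_iff y).1 (orderOf_eq_one_iff.1 h4)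
      · exact absurd (h4 ▸ orderOf_dvd_natCard (y : M ⧸ K)) hi
    rcases h _ hch with h3 | h3
    · exact absurd (h3 ▸ Subgroup.subset_closure (k := {y : M | orderOf y = p}) hx) (by simpa using hx1)
    · exact top_le_iff.1 (h3 ▸ hle)
  · left
    have hch : (Cfsg.pPrimeCore p M).Characteristic := by
      rw [characteristic_iff_map_le]
      intro φ
      unfold Cfsg.pPrimeCore
      rw [sSup_eq_iSup', Subgroup.map_iSup, iSup_le_iff]
      rintro ⟨L, hL1, hL2⟩
      apply le_iSup_of_le (f := fun L : {N : Subgroup M | N.Normal ∧ (Nat.card N).Coprime p} => (L : Subgroup M))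
        ⟨L.map φ.toMonoidHom, hL1.map _ φ.surjective, by
          rw [card_map_of_injective φ.injective]; exact hL2⟩ le_rfl
    have hle : K ≤ Cfsg.pPrimeCore p M :=
      le_sSup ⟨hK, ((Nat.Prime.coprime_iff_not_dvd hp).2 hK').symm⟩
    rcases h _ hch with h3 | h3
    · exact le_bot_iff.1 (h3 ▸ hle)
    · have := H33.not_dvd_card_pPrimeCore (G := M) hp
      rw [h3] at this
      exact absurd (by simpa using h1) this

omit [Finite G] in
/-- A chief factor is characteristically simple. -/
theorem charSimple_of_chief (N H : Subgroup G) [N.Normal] [H.Normal] (hNH : N ≤ H)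
    (hmax : ∀ L : Subgroup G, L.Normal → N ≤ L → L ≤ H → L = N ∨ L = H)
    (K : Subgroup (H ⧸ N.subgroupOf H)) (hK : K.Characteristic) : K = ⊥ ∨ K = ⊤ := by
  set L : Subgroup G := (K.comap (QuotientGroup.mk' (N.subgroupOf H))).map H.subtype with hL
  have hLn : L.Normal := by
    refine ⟨?_⟩
    rintro _ ⟨x, hx, rfl⟩ g
    let φ : H ≃* H := MulAut.conjNormal g
    have hφ : (N.subgroupOf H).map φ.toMonoidHom = N.subgroupOf H := by
      ext y
      constructor
      · rintro ⟨z, hz, rfl⟩
        exact (‹N.Normal›).conj_mem _ hz g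
      · intro hy
        refine ⟨φ.symm y, ?_, by simp⟩
        have : ((φ.symm y : H) : G) = g⁻¹ * y * g := by simp [φ]
        show ((φ.symm y : H) : G) ∈ N
        rw [this]
        exact (‹N.Normal›).conj_mem' _ hy g
    let ψ := QuotientGroup.congr (N.subgroupOf H) (N.subgroupOf H) φ hφ
    refine ⟨φ x, ?_, by simp [φ]⟩
    have h1 : ψ (QuotientGroup.mk x) ∈ K := by
      have := characteristic_iff_map_le.1 hK ψ
      exact this ⟨_, hx, rfl⟩
    exact h1
  have h1 : N ≤ L := by
    intro x hx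
    refine ⟨⟨x, hNH hx⟩, ?_, rfl⟩
    show (QuotientGroup.mk' (N.subgroupOf H)) ⟨x, hNH hx⟩ ∈ K
    have : (QuotientGroup.mk' (N.subgroupOf H)) ⟨x, hNH hx⟩ = 1 :=
      (QuotientGroup.eq_one_iff _).2 hx
    rw [this]; exact K.one_mem
  rcases hmax L hLn h1 (map_subtype_le _) with h | h
  · left
    rw [eq_bot_iff]
    intro q hq
    obtain ⟨x, rfl⟩ := QuotientGroup.mk_surjective q
    have : (x : G) ∈ N := h ▸ (⟨x, hq, rfl⟩ : (x : G) ∈ L)
    exact (QuotientGroup.eq_one_iff x).2 this
  · right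
    rw [eq_top_iff]
    intro q _
    obtain ⟨x, rfl⟩ := QuotientGroup.mk_surjective q
    have : (x : G) ∈ L := by rw [h]; exact x.2
    obtain ⟨y, hy, hyx⟩ := this
    have : y = x := Subtype.ext hyx
    subst this
    exact hy

theorem not_sq_dvd_factorial {p n : ℕ} (hp : p.Prime) (h : n < 2 * p) : ¬ p ^ 2 ∣ n.factorial := by
  have h2 : n < p ^ 2 := by nlinarith [hp.two_le]
  have hlog : Nat.log p n < 2 := by
    rcases Nat.eq_zero_or_pos n with rfl | hn
    · simp
    · exact (Nat.log_lt_iff_lt_pow hp.one_lt hn.ne').2 h2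
  rw [hp.pow_dvd_factorial_iff hlog]
  simp only [Nat.Ico_succ_singleton, Finset.sum_singleton, pow_one, not_le]
  exact (Nat.div_lt_iff_lt_mul hp.pos).2 h

theorem two_primes_half (m : ℕ) (hm : 11 ≤ m) :
    ∃ p q : ℕ, p.Prime ∧ q.Prime ∧ p ≠ q ∧ m < 2 * p ∧ m < 2 * q ∧ p ≤ m ∧ q ≤ m := by
  by_cases h : 17 ≤ m
  · obtain ⟨p, q, hp, hq, h1, h2, h3⟩ := H81.exists_two_primes m h
    exact ⟨p, q, hp, hq, by omega, h1, by omega, by omega, h3⟩
  · by_cases h13 : 13 ≤ m
    · exact ⟨11, 13, by norm_num, by norm_num, by omega, by omega, by omega, by omega, h13⟩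
    · exact ⟨7, 11, by norm_num, by norm_num, by omega, by omega, by omega, by omega, hm⟩

theorem card_alt (n : ℕ) (hn : 2 ≤ n) :
    2 * Nat.card (alternatingGroup (Fin n)) = n.factorial := by
  haveI : Nontrivial (Fin n) := Fin.nontrivial_iff_two_le.2 hn
  rw [two_mul_nat_card_alternatingGroup, Nat.card_perm, Nat.card_fin]

omit [Finite G] in
theorem no_adj_of_spec (n : ℕ)
    (hspec : Set.range (orderOf : G → ℕ) = Set.range (orderOf : alternatingGroup (Fin n) → ℕ))
    {p r : ℕ} (hp : p.Prime) (hr : r.Prime) (hne : p ≠ r) (h : n < p + r) :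
    ¬ ∃ g : G, p ∣ orderOf g ∧ r ∣ orderOf g := by
  rintro ⟨g, h1, h2⟩
  have : orderOf g ∈ Set.range (orderOf : alternatingGroup (Fin n) → ℕ) := hspec ▸ ⟨g, rfl⟩
  obtain ⟨σ, hσ⟩ := this
  rw [← hσ, ← Subgroup.orderOf_coe] at h1 h2
  have := perm_add_le_of_dvd_orderOf _ hp hr hne h1 h2
  rw [Fintype.card_fin] at this
  omega

/-- The congruence condition for two primes in `(n/2, n]`. -/
theorem mod_ne_of_half {n p r : ℕ} (hn : 5 ≤ n) (hp : p.Prime) (hr : r.Prime) (hne : p ≠ r)
    (h1 : n < 2 * p) (h2 : n < 2 * r) (h4 : r ≤ n) {c : ℕ} (hc : c ∣ n.factorial) :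
    ∀ k, 1 ≤ k → r ^ k ∣ c → r ^ k % p ≠ 1 := by
  intro k hk hd
  have hk1 : k = 1 := by
    by_contra h
    exact not_sq_dvd_factorial hr h2 ((pow_dvd_pow r (by omega)).trans (hd.trans hc))
  subst hk1
  rw [pow_one]
  intro h
  rcases lt_or_gt_of_ne hne with hlt | hlt
  · have : r % p = r - p := by
      rw [Nat.mod_eq_sub_mod hlt.le, Nat.mod_eq_of_lt (by omega)]
    have h5 : r = p + 1 := by omega
    have hp2 : p ≠ 2 := by omega
    have hodd := hp.odd_of_ne_two hp2
    have hodd' := hr.odd_of_ne_two (by omega)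
    rw [h5] at hodd'
    exact (Nat.not_even_iff_odd.2 hodd') hodd.add_one
  · rw [Nat.mod_eq_of_lt hlt] at h
    exact hr.one_lt.ne' h

end Cfsg.Agent.H46
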